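import Cfsg.Agent.H849.OZ.Bad
import Cfsg.Agent.H174.Ore.Fused

/-!
# One vanishing class: fused subgroups, congruences, several classes (helper289, S4842)

* `pow_conj`  : `|N(⟨y⟩)| = (p - 1) |C(y)|`, `y` of order `p`: `y` is rational;
* `fused`     : `S ≤ G`, all non-identity elements conjugate to `y`, `χ(y) = k`: `|S| ∣ χ(1) - k`;
* `congr_int` : `g`, `g ^ j` with the same `r'`-part: `r ∣ χ(g) - χ(g ^ j)`;
* `pow_dvd`   : `r ^ a ∣ χ(1)`, `r` prime to `|G : C(y)|`: `r ^ a ∣ χ(y)`.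
-/

set_option autoImplicit false

open Cfsg Cfsg.Agent.Characters Cfsg.Agent.H732.VZ Cfsg.Agent.H604.OZ

namespace Cfsg.Agent.H289.OZ

open Subgroup

universe u

theorem pow_conj {G : Type u} [Group G] [Finite G] {y : G} {p c : ℕ} (hp : p.Prime) (hy : orderOf y = p)
    (hc : Nat.card (centralizer ({y} : Set G)) = c) (hN : Nat.card (normalizer (zpowers y : Set G)) = (p - 1) * c) {m : ℕ}
    (hm : m.Coprime p) : IsConj (y ^ m) y := by
  classical
  obtain ⟨N, hNN⟩ : ∃ N : Subgroup G, N = normalizer (zpowers y : Set G) := ⟨_, rfl⟩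
  rw [← hNN] at hN
  have hmem : ∀ g ∈ N, g * y * g⁻¹ ∈ zpowers y := by
    intro g hg
    rw [hNN] at hg
    exact (Subgroup.mem_normalizer_iff.1 hg y).1 (mem_zpowers y)
  let act : MulAction N G := MulAction.compHom G (MulAut.conj.comp N.subtype)
  have hsm : ∀ (g : N) (u : G), g • u = g * u * (g : G)⁻¹ := fun g u => rfl
  have hle : centralizer ({y} : Set G) ≤ N := by
    intro g hg
    rw [hNN, Subgroup.mem_normalizer_iff]
    have h1 : g * y = y * g := mem_centralizer_singleton_iff.1 hg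
    have h2 : ∀ k : ℤ, g * y ^ k * g⁻¹ = y ^ k := fun k => by
      have h3 : Commute g y := h1
      rw [(h3.zpow_right k).eq, mul_inv_cancel_right]
    intro u
    constructor
    · intro hu
      obtain ⟨k, rfl⟩ := mem_zpowers_iff.1 hu
      rw [h2]
      exact hu
    · intro hu
      obtain ⟨k, hk⟩ := mem_zpowers_iff.1 hu
      have h3 : u = y ^ k := by
        have h4 : u = g⁻¹ * (g * u * g⁻¹) * g := by group
        rw [h4, ← hk]
        have h5 : Commute g⁻¹ y := Commute.inv_left h1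
        rw [(h5.zpow_right k).eq, inv_mul_cancel_right]
      rw [h3]
      exact zpow_mem (mem_zpowers y) k
  have hstab : Nat.card (MulAction.stabilizer N y) = c := by
    have h1 : (MulAction.stabilizer N y).map N.subtype = centralizer ({y} : Set G) := by
      ext g
      constructor
      · rintro ⟨n, hn, rfl⟩
        have h2 : (n : G) * y * (n : G)⁻¹ = y := hn
        exact mem_centralizer_singleton_iff.2 (mul_inv_eq_iff_eq_mul.1 h2)
      · intro hg
        refine ⟨⟨g, hle hg⟩, ?_, rfl⟩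
        show g * y * g⁻¹ = y
        rw [mem_centralizer_singleton_iff.1 hg, mul_inv_cancel_right]
    rw [← hc, ← h1]
    exact (Subgroup.card_map_of_injective N.subtype_injective).symm
  have hpos : 0 < c := by rw [← hc]; exact Nat.card_pos
  have horb : (MulAction.orbit N y).ncard = p - 1 := by
    have h1 := (MulAction.stabilizer N y).card_mul_index
    rw [hstab, MulAction.index_stabilizer, hN, mul_comm (p - 1)] at h1
    exact Nat.eq_of_mul_eq_mul_left hpos h1
  have hT : (((zpowers y : Subgroup G) : Set G) \ {1}).ncard = p - 1 := by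
    rw [Set.ncard_sdiff_singleton_of_mem (one_mem _)]
    congr 1
    rw [← Nat.card_coe_set_eq]
    exact (Nat.card_zpowers y).trans hy
  have hsub : MulAction.orbit N y ⊆ ((zpowers y : Subgroup G) : Set G) \ {1} := by
    rintro _ ⟨g, rfl⟩
    refine ⟨hmem g g.2, ?_⟩
    intro h1
    have h2 : (g : G) * y * (g : G)⁻¹ = 1 := h1
    rw [conj_eq_one_iff] at h2
    rw [h2, orderOf_one] at hy
    exact hp.one_lt.ne hy
  have heq := Set.eq_of_subset_of_ncard_le hsub (by rw [hT, horb]) (Set.toFinite _)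
  have hin : y ^ m ∈ MulAction.orbit N y := by
    rw [heq]
    refine ⟨pow_mem (mem_zpowers y) m, ?_⟩
    intro h1
    have h2 : y ^ m = 1 := h1
    have h3 := orderOf_dvd_of_pow_eq_one h2
    rw [hy] at h3
    exact (Nat.Prime.coprime_iff_not_dvd hp).1 hm.symm h3
  obtain ⟨g, hg⟩ := hin
  refine (isConj_iff.2 ⟨(g : G), ?_⟩ : IsConj y (y ^ m)).symm
  exact hg

variable {G : Type u} [Group G] [Finite G] {χ : IrrCharacter G}

/-- a fused subgroup -/
theorem fused {S : Subgroup G} {y : G} (hS : ∀ u ∈ S, u ≠ 1 → IsConj u y) {k : ℤ} (hk : (χ : G → ℂ) y = k) {n : ℕ}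
    (hn : Nat.card S = n) : (n : ℤ) ∣ (charDegree (χ : G → ℂ) : ℤ) - k := by
  obtain ⟨m, hm⟩ := H174.Ore.fused_sum hS χ
  rw [hk, hn] at hm
  have h1 : ((charDegree (χ : G → ℂ) : ℤ) - k : ℤ) = n * (m - k) := by
    have : (((charDegree (χ : G → ℂ) : ℤ) - k : ℤ) : ℂ) = ((n * (m - k) : ℤ) : ℂ) := by
      push_cast
      linear_combination hm
    exact_mod_cast this
  exact ⟨m - k, h1⟩

/-- congruence for commuting elements -/
theorem congr_int {g : G} {r : ℕ} (hr : r.Prime) {j n : ℕ} (hj : (g ^ j) ^ (r ^ n) = g ^ (r ^ n)) {k l : ℤ}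
    (hk : (χ : G → ℂ) g = k) (hl : (χ : G → ℂ) (g ^ j) = l) : (r : ℤ) ∣ k - l := by
  obtain ⟨M, hM⟩ := Blocks.ExistsModular.exists_isPModular hr
  have h1 := H849.OZ.av_sub_mem (χ := χ) hr hM.2.1.isPrime hM.2.2 g hj
  have h2 : Cfsg.Agent.H732.VZ.av χ g - Cfsg.Agent.H732.VZ.av χ (g ^ j) = ((k - l : ℤ) : AlgInt) := by
    apply Subtype.ext
    rw [AddSubgroupClass.coe_sub, Cfsg.Agent.H732.VZ.av_coe, Cfsg.Agent.H732.VZ.av_coe, hk, hl]
    simp
  rw [h2, int_mem_iff hr hM.2.1.isPrime hM.2.2] at h1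
  exact h1

/-- divisibility for central elements of a Sylow subgroup -/
theorem pow_dvd {y : G} {r a : ℕ} (hr : r.Prime) (hd : r ^ a ∣ charDegree (χ : G → ℂ))
    (hi : ¬ r ∣ (Subgroup.centralizer ({y} : Set G)).index) {k : ℤ} (hk : (χ : G → ℂ) y = k) : ((r ^ a : ℕ) : ℤ) ∣ k := by
  have h1 := H849.OZ.rat_dvd_deg y hk
  have h2 : ((r ^ a : ℕ) : ℤ) ∣ ((Subgroup.centralizer ({y} : Set G)).index : ℤ) * k :=
    (Int.natCast_dvd_natCast.2 hd).trans h1
  refine IsCoprime.dvd_of_dvd_mul_left ?_ h2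
  rw [Nat.isCoprime_iff_coprime]
  exact Nat.Coprime.pow_left _ ((Nat.Prime.coprime_iff_not_dvd hr).2 hi)

theorem not_conj {x y : G} (h : One χ x) {k : ℤ} (hk : (χ : G → ℂ) y = k) (h0 : k ≠ 0) : ¬ IsConj x y := by
  intro hx
  obtain ⟨c, hc⟩ := isConj_iff.1 hx
  have h2 : (χ : G → ℂ) y = 0 := by
    rw [← hc, (Core.isIrr_isClassFunction χ.2) x c]
    exact h.zero
  rw [hk] at h2
  exact h0 (by exact_mod_cast h2)

/-- one rational class -/
theorem one_k {x y : G} (h : One χ x) (hy : ∀ m : ℕ, m.Coprime (Nat.card G) → IsConj (y ^ m) y) {k : ℤ}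
    (hk : (χ : G → ℂ) y = k) : k = 0 ∨ cent x * (k.natAbs ^ 2 - 1) ≤ cent y := by
  by_cases h0 : k = 0
  · exact Or.inl h0
  · exact Or.inr (H849.OZ.one_class h hy hk (not_conj h hk h0) (n := k.natAbs) (Int.natAbs_dvd.2 dvd_rfl))

/-- one rational class, bounds: `c0 ≤ |C(x)|`, `|C(y)| ≤ c1`, `c1 < c0 ((b + 1) ^ 2 - 1)` -/
theorem one_le {x y : G} (h : One χ x) (hy : ∀ m : ℕ, m.Coprime (Nat.card G) → IsConj (y ^ m) y) {k : ℤ}
    (hk : (χ : G → ℂ) y = k) {c0 c1 : ℕ} (h0 : c0 ≤ cent x) (h1 : cent y ≤ c1) (b : ℕ)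
    (hb : c1 < c0 * ((b + 1) ^ 2 - 1)) : k = 0 ∨ k.natAbs ≤ b := by
  rcases one_k h hy hk with h2 | h2
  · exact Or.inl h2
  · right
    by_contra hlt
    have h3 : (b + 1) ^ 2 - 1 ≤ k.natAbs ^ 2 - 1 := Nat.sub_le_sub_right (Nat.pow_le_pow_left (by omega) 2) 1
    have h4 := Nat.mul_le_mul h0 h3
    omega

/-- several rational classes of elements of different orders -/
theorem excess_fin {n : ℕ} {x : G} (h : One χ x) (y : Fin n → G) (k : Fin n → ℤ)
    (hy : ∀ i, ∀ m : ℕ, m.Coprime (Nat.card G) → IsConj (y i ^ m) (y i)) (hk : ∀ i, (χ : G → ℂ) (y i) = k i)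
    (hk0 : ∀ i, k i ≠ 0) (hord : ∀ i j, i ≠ j → orderOf (y i) ≠ orderOf (y j)) :
    (cent x : ℝ) * ∑ i, ((k i : ℝ) ^ 2 - 1) / cent (y i) ≤ 1 :=
  H849.OZ.excess_rat h Finset.univ y k (fun i _ => hy i) (fun i _ => hk i) (fun i _ => not_conj h (hk i) (hk0 i))
    (fun i _ j _ hij hc => hord i j hij (H604.OZ.orderOf_eq_of_conj hc))

end Cfsg.Agent.H289.OZ
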